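import Cfsg.Agent.Th5.W1
import Cfsg.Agent.GH2.A
import Cfsg.Agent.Solv.CyclicMax

/-! `D₈ ≀ Z₂` inside a 2-group of sectional rank four (S4402). -/

set_option autoImplicit false
open Subgroup Cfsg CF.BG
open scoped commutatorElement

namespace CF.Th5

theorem iso_ext {G H M : Type*} [Group G] [Group H] [Group M] (ψ : M →* G) (θ : M →* H)
    (α : M → M) {x : G} {y : H} (hx : ∀ m, x * ψ m = ψ (α m) * x) (hy : ∀ m, y * θ m = θ (α m) * y)
    (x2 : x * x = 1) (y2 : y * y = 1) (ker : ∀ m, ψ m = 1 ↔ θ m = 1) (x1 : ∀ m, ψ m * x ≠ 1)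
    (y1 : ∀ m, θ m * y ≠ 1) (sx : ∀ g, ∃ m, g = ψ m ∨ g = ψ m * x)
    (sy : ∀ g, ∃ m, g = θ m ∨ g = θ m * y) : Nonempty (G ≃* H) := by
  let K : Subgroup (G × H) :=
    { carrier := {p | ∃ m, p = (ψ m, θ m) ∨ p = (ψ m * x, θ m * y)}
      one_mem' := ⟨1, Or.inl (by simp; rfl)⟩
      mul_mem' := by
        rintro _ _ ⟨m, rfl | rfl⟩ ⟨n, rfl | rfl⟩
        · exact ⟨m * n, Or.inl (by simp)⟩
        · exact ⟨m * n, Or.inr (by simp [mul_assoc])⟩
        · exact ⟨m * α n, Or.inr (by simp [mul_assoc, hx, hy])⟩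
        · refine ⟨m * α n, Or.inl ?_⟩
          rw [Prod.mk_mul_mk, mul_assoc, mul_assoc, ← mul_assoc x, ← mul_assoc y, hx, hy,
            mul_assoc, mul_assoc, x2, y2]
          simp
      inv_mem' := by
        rintro _ ⟨m, rfl | rfl⟩
        · exact ⟨m⁻¹, Or.inl (by simp)⟩
        · refine ⟨α m⁻¹, Or.inr ?_⟩
          rw [← hx, ← hy, Prod.inv_mk, mul_inv_rev, mul_inv_rev, inv_eq_of_mul_eq_one_left x2,
            inv_eq_of_mul_eq_one_left y2, map_inv, map_inv] }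
  have b1 : Function.Bijective ((MonoidHom.fst G H).comp K.subtype) := by
    refine ⟨(injective_iff_map_eq_one _).2 ?_, fun g => ?_⟩
    · rintro ⟨_, m, rfl | rfl⟩ h
      · exact Subtype.ext (Prod.ext h ((ker m).1 h))
      · exact absurd h (x1 m)
    · obtain ⟨m, rfl | rfl⟩ := sx g
      exacts [⟨⟨_, m, Or.inl rfl⟩, rfl⟩, ⟨⟨_, m, Or.inr rfl⟩, rfl⟩]
  have b2 : Function.Bijective ((MonoidHom.snd G H).comp K.subtype) := by
    refine ⟨(injective_iff_map_eq_one _).2 ?_, fun g => ?_⟩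
    · rintro ⟨_, m, rfl | rfl⟩ h
      · exact Subtype.ext (Prod.ext ((ker m).2 h) h)
      · exact absurd h (y1 m)
    · obtain ⟨m, rfl | rfl⟩ := sy g
      exacts [⟨⟨_, m, Or.inl rfl⟩, rfl⟩, ⟨⟨_, m, Or.inr rfl⟩, rfl⟩]
  exact ⟨(MulEquiv.ofBijective _ b1).symm.trans (MulEquiv.ofBijective _ b2)⟩

namespace Wr

def th0 (g : Wr) : Wr :=
  cond g.l.a t 1 * cond g.l.b (a1 * b2 * t * (a1 * b2)) 1 * cond (g.l.c ^^ g.r.c) z 1 *
    cond g.r.a (a1 * t * a1) 1 * cond g.r.b (b2 * t * b2) 1 * cond g.s a1 1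

theorem th0_mul (g s : Wr) : th0 (g * s) = th0 g * th0 s := by
  have h1 : th0 1 = 1 := by decide
  let K : Subgroup Wr :=
    { carrier := {s | ∀ g, th0 (g * s) = th0 g * th0 s}
      one_mem' := fun g => by rw [mul_one, h1, mul_one]
      mul_mem' := fun {x y} hx hy g => by rw [← mul_assoc, hy, hx, hy, mul_assoc]
      inv_mem' := fun {x} hx g => by
        have e1 := hx (g * x⁻¹)
        have e2 := hx x⁻¹
        rw [inv_mul_cancel_right] at e1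
        rw [inv_mul_cancel, h1] at e2
        rw [e1, eq_inv_of_mul_eq_one_left e2.symm, mul_inv_cancel_right] }
  have : K = ⊤ := eq_top (by decide +kernel : ∀ g, th0 (g * a1) = th0 g * th0 a1)
    (by decide +kernel : ∀ g, th0 (g * b1) = th0 g * th0 b1)
    (by decide +kernel : ∀ g, th0 (g * t) = th0 g * th0 t)
  exact (this ▸ mem_top s : s ∈ K) g

def th : Wr →* Wr := MonoidHom.mk' th0 th0_mul

theorem th_apply (g : Wr) : th g = th0 g := rfl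

theorem mp_mul {α : MulAut Wr} {X Y : Subgroup Wr} (h : Mp α X Y) (e : E16 X) (m : Wr) :
    Mp (α * MulAut.conj m) X Y := fun g => by
  rw [MulAut.mul_apply, h, MulAut.conj_apply]
  exact ⟨fun k => by simpa [mul_assoc] using e.nm m⁻¹ _ k, e.nm m g⟩

variable {S : Type*} [Group S] {φ : Wr →* S} {x : S} {α : MulAut Wr}

def Ind (φ : Wr →* S) (x : S) (α : MulAut Wr) : Prop := ∀ m, φ (α m) = x * φ m * x⁻¹

theorem exists_ind (hφ : Function.Injective φ) (hx : x ∈ 𝐍 φ.range) : ∃ α, Ind φ x α := by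
  let e := MonoidHom.ofInjective hφ
  refine ⟨e.trans ((φ.range.normalizerMonoidHom ⟨x, hx⟩).trans e.symm), fun m => ?_⟩
  simp only [MulEquiv.trans_apply, e, MonoidHom.apply_ofInjective_symm]
  rfl

theorem Ind.mul (h : Ind φ x α) (m : Wr) : Ind φ (x * φ m) (α * MulAut.conj m) := fun g => by
  rw [MulAut.mul_apply, h, MulAut.conj_apply, map_mul, map_mul, map_inv]; group

theorem Ind.sq (hφ : Function.Injective φ) (h : Ind φ x α) {m : Wr} (e : φ m = x * x) (g : Wr) :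
    α (α g) = m * g * m⁻¹ := hφ (by rw [h, h, map_mul, map_mul, map_inv, e]; group)

theorem Ind.cj (h : Ind φ x α) {X Y : Subgroup Wr} (e : Mp α X Y) :
    cj x (X.map φ) = Y.map φ := by
  ext g
  rw [mem_cj_iff]
  constructor
  · rintro ⟨_, ⟨m, hm, rfl⟩, rfl⟩
    exact ⟨α m, (e m).2 hm, h m⟩
  · rintro ⟨m, hm, rfl⟩
    obtain ⟨m, rfl⟩ := α.surjective m
    exact ⟨φ m, ⟨m, (e m).1 hm, rfl⟩, (h m).symm⟩

variable [Finite S]

theorem Ind.core (hφ : Function.Injective φ) (sr : GH2.SR S) (h : Ind φ x α) (h1 : α z1 = z1)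
    (hA : Mp α A A) (hB : Mp α B B) (x2 : x * x ∈ φ.range) : x ∈ φ.range := by
  by_contra nx
  obtain ⟨m, hm⟩ := x2
  have c := aut_central h1 hA hB
  have c2 : ∀ g ∈ D, m * g * m⁻¹ = g := fun g hg => by
    rw [← h.sq hφ hm, show α g = g * (g⁻¹ * α g) by group, map_mul, aut_fix h1 _ (c g hg)]
    nth_rewrite 1 [show α g = g * (g⁻¹ * α g) by group]
    rw [mul_assoc, e16_A.sq _ (c g hg).1, mul_one]
  have mZ : m ∈ A ⊓ B := (by decide +kernel : ∀ m, m * a1 * m⁻¹ = a1 → m * b1 * m⁻¹ = b1 →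
    m * a2 * m⁻¹ = a2 → m * b2 * m⁻¹ = b2 → m ∈ A ⊓ B) m (c2 _ (by decide)) (c2 _ (by decide))
    (c2 _ (by decide)) (c2 _ (by decide))
  have ZD : A ⊓ B ≤ D := (by decide : ∀ g ∈ A ⊓ B, g ∈ D)
  have sqD : ∀ g ∈ D, g * g ∈ A ⊓ B := by decide
  have nD : zpowers x ≤ 𝐍 (D.map φ) := zpowers_le.2 (mem_norm_of_cj_le fun g hg => by
    obtain ⟨_, ⟨d, hd, rfl⟩, rfl⟩ := mem_cj_iff.1 hg
    exact ⟨α d, aut_D α hd, h d⟩)
  have key := sr (D.map φ ⊔ zpowers x) ((A ⊓ B).map φ) fun y hy => by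
    obtain ⟨_, ⟨d, hd, rfl⟩, _, ⟨k, rfl⟩, rfl⟩ := (mem_sup_norm' nD).1 hy
    have e : ∀ j : ℤ, x ^ (2 * j) = φ (m ^ j) := fun j => by
      rw [map_zpow, hm, zpow_mul, zpow_two]
    have dm : ∀ j : ℤ, d * m ^ j ∈ D := fun j => D.mul_mem hd (D.zpow_mem (ZD mZ) j)
    obtain ⟨j, rfl | rfl⟩ := Int.even_or_odd' k
    · simp only [e, ← map_mul]
      exact mem_map_of_mem φ (sqD _ (dm j))
    · simp only [zpow_add_one, e, ← mul_assoc, ← map_mul]
      have := dm j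
      generalize d * m ^ j = d' at this
      refine ⟨d' * d' * (d'⁻¹ * α d') * m, mul_mem (mul_mem (sqD _ this) (c _ this)) mZ, ?_⟩
      simp only [map_mul, map_inv, h d', hm]
      group
  have c1 : ♯((A ⊓ B).map φ) = 4 := by rw [card_map hφ, card_Z]
  have c2 : ♯(D.map φ) = 64 := by rw [card_map hφ, card_D]
  have lt : D.map φ < D.map φ ⊔ zpowers x := lt_of_le_of_ne le_sup_left fun e =>
    nx (map_le_range φ D (e ▸ mem_sup_right (mem_zpowers x)))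
  have d1 := card_lt lt
  have d2 := card_dvd lt.le
  have d3 := card_mul_relIndex ((map_mono ZD : _ ≤ D.map φ).trans lt.le)
  rw [c2] at d1 d2
  rw [c1] at d3
  omega

omit [Finite S] in
theorem adj (h : Ind φ x α) : ∃ m, Ind φ (x * φ m) (α * MulAut.conj m) ∧
    (α * MulAut.conj m) z1 = z1 := by
  rcases aut_z1 α with e | e
  · exact ⟨1, h.mul 1, by simpa using e⟩
  · exact ⟨t, h.mul t, e⟩

theorem norm_eq (hφ : Function.Injective φ) (sr : GH2.SR S) (k : IsPGroup 2 S) {V : Subgroup Wr}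
    (e : E16 V) : 𝐍 (V.map φ) = φ.range := by
  have := Fact.mk Nat.prime_two
  have le : φ.range ≤ 𝐍 (V.map φ) := le_norm_iff.2 (by
    rintro _ ⟨g, rfl⟩ _ ⟨v, hv, rfl⟩
    exact ⟨g * v * g⁻¹, e.nm g v hv, by simp⟩)
  by_contra ne
  have lt := Nil.lt_inf_norm (k.to_subgroup _).isNilpotent (lt_of_le_of_ne le (Ne.symm ne))
  obtain ⟨g, hg, g1⟩ := Set.not_subset.1 lt.not_ge
  obtain ⟨j, x1, x2⟩ := CF.Solv.exists_pow_notMem_pow_mem k g1
  have hx := pow_mem hg (2 ^ j)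
  generalize g ^ 2 ^ j = x at x1 x2 hx
  obtain ⟨α, h⟩ := exists_ind hφ (mem_inf.1 hx).2
  have hV : Mp α V V := fun m => by
    rw [← mem_map_iff_mem hφ, h, ← mem_norm.1 (mem_inf.1 hx).1, mem_map_iff_mem hφ]
  have hAB : Mp α A A ∧ Mp α B B := (aut_cases α).resolve_right fun ⟨p, q⟩ => by
    rcases e.cases with rfl | rfl
    · exact absurd ((aut_Z α a1).1 ⟨(hV _).2 (by decide), (p _).2 (by decide)⟩) (by decide)
    · exact absurd ((aut_Z α b1).1 ⟨(q _).2 (by decide), (hV _).2 (by decide)⟩) (by decide)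
  obtain ⟨m, h', e1⟩ := adj h
  have := h'.core hφ sr e1 (mp_mul hAB.1 e16_A m) (mp_mul hAB.2 e16_B m) (by
    rw [sq] at x2
    obtain ⟨n, hn⟩ := x2
    exact ⟨α m * n * m, by rw [map_mul, map_mul, h, hn]; group⟩)
  exact x1 ((φ.range.mul_mem_cancel_right ⟨m, rfl⟩).1 this)

theorem swap (hφ : Function.Injective φ) (sr : GH2.SR S) (k : IsPGroup 2 S) (h : Ind φ x α)
    (x1 : x ∉ φ.range) : Mp α A B ∧ Mp α B A :=
  (aut_cases α).resolve_left fun ⟨p, _⟩ =>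
    x1 (norm_eq hφ sr k e16_A ▸ cj_eq_self.1 (h.cj p))

theorem mul_mem_range (hφ : Function.Injective φ) (sr : GH2.SR S) (k : IsPGroup 2 S) {y : S}
    (hx : x ∈ 𝐍 φ.range) (hy : y ∈ 𝐍 φ.range) (x1 : x ∉ φ.range) (y1 : y ∉ φ.range) :
    x * y ∈ φ.range := by
  obtain ⟨α, h⟩ := exists_ind hφ hx
  obtain ⟨β, h'⟩ := exists_ind hφ hy
  rw [← norm_eq hφ sr k e16_A, ← cj_eq_self, ← cj_cj, h'.cj (swap hφ sr k h' y1).1,
    h.cj (swap hφ sr k h x1).2]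

omit [Finite S] in
theorem center_range (hφ : Function.Injective φ) : 𝐙 φ.range = zpowers (φ z) := by
  refine le_antisymm ?_ (zpowers_le.2 (mem_inf.2 ⟨⟨z, rfl⟩, mem_cent.2 ?_⟩))
  · rintro _ ⟨⟨g, rfl⟩, h⟩
    rcases center_cases g fun y => hφ (by
      rw [map_mul, map_mul]; exact mem_cent.1 h _ ⟨y, rfl⟩) with rfl | rfl
    · simp
    · exact mem_zpowers _
  · rintro _ ⟨y, rfl⟩
    rw [← map_mul, ← map_mul, (by decide : ∀ y, y * z = z * y)]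

omit [Finite S] in
theorem card_z (hφ : Function.Injective φ) : ♯(zpowers (φ z)) = 2 := by
  rw [Nat.card_zpowers, orderOf_injective φ hφ]
  exact orderOf_eq_of_pow Nat.prime_two (by decide) (by decide)

theorem center_eq (hφ : Function.Injective φ) (sr : GH2.SR S) (k : IsPGroup 2 S) :
    center S = zpowers (φ z) := by
  have := Fact.mk Nat.prime_two
  have : Nontrivial S := ⟨⟨φ z, φ 1, fun h => absurd (hφ h) (by decide)⟩⟩
  have h1 : center S ≠ ⊥ := (nontrivial_iff_ne_bot _).1 k.center_nontrivial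
  refine eq_of_prime_of_ne_bot (by rw [card_z hφ]; norm_num) ?_ h1
  rw [← center_range hφ]
  refine le_inf ?_ (center_le_centralizer _)
  rw [← norm_eq hφ sr k e16_A]
  exact (center_le_centralizer _).trans (cent_le_norm _)

def Zz (u : Wr) : Prop := u = 1 ∨ u = z

instance : DecidablePred Zz := fun u => inferInstanceAs (Decidable (u = 1 ∨ u = z))

theorem adj2 (hφ : Function.Injective φ) (sr : GH2.SR S) (k : IsPGroup 2 S)
    (hx : x ∈ 𝐍 φ.range) (x1 : x ∉ φ.range) : ∃ x α, x ∈ 𝐍 φ.range ∧ x ∉ φ.range ∧ Ind φ x α ∧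
      Zz (b1⁻¹ * α a1) ∧ Zz (a1⁻¹ * α b1) ∧ Zz (t⁻¹ * α t) ∧ ∃ m, Zz m ∧ φ m = x * x := by
  have mem : ∀ {x : S} (m), x ∈ 𝐍 φ.range → x ∉ φ.range →
      x * φ m ∈ 𝐍 φ.range ∧ x * φ m ∉ φ.range := fun m h1 h2 =>
    ⟨mul_mem h1 (le_norm_self _ ⟨m, rfl⟩), fun h => h2 ((φ.range.mul_mem_cancel_right ⟨m, rfl⟩).1 h)⟩
  obtain ⟨α, h⟩ := exists_ind hφ hx
  obtain ⟨m, h', e1⟩ := adj h
  obtain ⟨hx, x1⟩ := mem m hx x1
  generalize x * φ m = x at h' hx x1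
  generalize α * MulAut.conj m = α at h' e1
  obtain ⟨p, q⟩ := swap hφ sr k h' x1
  obtain ⟨g1, g2, g3, g4⟩ := aut_gens e1
  obtain ⟨d, d1, d2, d3, d4⟩ := (fun u1 h1 u2 h2 u3 h3 u4 h4 =>
    ⟨⟨⟨u2.l.c ^^ u2.r.c, u1.l.c ^^ u1.r.c, false⟩, ⟨u4.l.c ^^ u4.r.c, u3.l.c ^^ u3.r.c, false⟩,
      false⟩, by revert u1 u2 u3 u4; decide +kernel⟩ :
    ∀ u1 ∈ A ⊓ B, ∀ u2 ∈ A ⊓ B, ∀ u3 ∈ A ⊓ B, ∀ u4 ∈ A ⊓ B, ∃ d : Wr,
      (a1⁻¹ * (d * a1 * d⁻¹) ∈ A ⊓ B ∧ Zz (u1 * (a1⁻¹ * (d * a1 * d⁻¹)))) ∧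
      (b1⁻¹ * (d * b1 * d⁻¹) ∈ A ⊓ B ∧ Zz (u2 * (b1⁻¹ * (d * b1 * d⁻¹)))) ∧
      (a2⁻¹ * (d * a2 * d⁻¹) ∈ A ⊓ B ∧ Zz (u3 * (a2⁻¹ * (d * a2 * d⁻¹)))) ∧
      (b2⁻¹ * (d * b2 * d⁻¹) ∈ A ⊓ B ∧ Zz (u4 * (b2⁻¹ * (d * b2 * d⁻¹)))))
    _ (g1.2 ((p _).2 (by decide))) _ (g2.1 ((q _).2 (by decide)))
    _ (g3.2 ((p _).2 (by decide))) _ (g4.1 ((q _).2 (by decide)))
  have key : ∀ g g' : Wr, g⁻¹ * (d * g * d⁻¹) ∈ A ⊓ B ∧ Zz (g'⁻¹ * α g * (g⁻¹ * (d * g * d⁻¹))) →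
      Zz (g'⁻¹ * (α * MulAut.conj d) g) := fun g g' ⟨e1', e2⟩ => by
    rwa [← aut_fix e1 _ e1', mul_assoc, ← map_mul, mul_inv_cancel_left] at e2
  have k1 := key _ _ d1
  have k2 := key _ _ d2
  have k3 := key _ _ d3
  have k4 := key _ _ d4
  have h2 := h'.mul d
  obtain ⟨hx, x1⟩ := mem d hx x1
  generalize x * φ d = x at h2 hx x1
  generalize α * MulAut.conj d = α at h2 k1 k2 k3 k4
  obtain ⟨m, hm⟩ := mul_mem_range hφ sr k hx hx x1 x1
  have fx : ∀ u, Zz u → α u = u := by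
    rintro _ (rfl | rfl)
    exacts [map_one _, aut_z α]
  have zm : ∀ u, Zz u → ∀ v, Zz v → Zz (u * v) := by decide
  have sq : ∀ g g', Zz (g'⁻¹ * α g) → Zz (g⁻¹ * α g') → Zz (g⁻¹ * (m * g * m⁻¹)) :=
    fun g g' e e' => by
      have := zm _ e' _ e
      rwa [← fx _ e, mul_assoc, ← map_mul, mul_inv_cancel_left, h2.sq hφ hm] at this
  have k5 : Zz (t⁻¹ * α t) := by
    refine (by decide +kernel : ∀ s, s * s = 1 → ∀ u1, Zz u1 → ∀ u2, Zz u2 → ∀ u3, Zz u3 →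
      ∀ u4, Zz u4 → s * (b1 * u1) * s⁻¹ = b2 * u3 → s * (a1 * u2) * s⁻¹ = a2 * u4 → Zz (t⁻¹ * s))
      _ (by rw [← map_mul, (by decide : t * t = 1), map_one]) _ k1 _ k2 _ k3 _ k4 ?_ ?_
    · rw [mul_inv_cancel_left, mul_inv_cancel_left, ← map_inv, ← map_mul, ← map_mul]; rfl
    · rw [mul_inv_cancel_left, mul_inv_cancel_left, ← map_inv, ← map_mul, ← map_mul]; rfl
  refine ⟨x, α, hx, x1, h2, k1, k2, k5, m, ?_, hm⟩
  exact (by decide +kernel : ∀ m, Zz (a1⁻¹ * (m * a1 * m⁻¹)) → Zz (b1⁻¹ * (m * b1 * m⁻¹)) →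
    Zz (a2⁻¹ * (m * a2 * m⁻¹)) → Zz (b2⁻¹ * (m * b2 * m⁻¹)) → m * t * m⁻¹ = t → Zz m) m
    (sq _ _ k1 k2) (sq _ _ k2 k1) (sq _ _ k3 k4) (sq _ _ k4 k3) (by
      rw [← h2.sq hφ hm, show α t = t * (t⁻¹ * α t) by group, map_mul, fx _ k5]
      nth_rewrite 1 [show α t = t * (t⁻¹ * α t) by group]
      rw [mul_assoc, (by decide : ∀ u, Zz u → u * u = 1) _ k5, mul_one])

theorem quot_iso (hφ : Function.Injective φ) (sr : GH2.SR S) (k : IsPGroup 2 S)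
    (hx : x ∈ 𝐍 φ.range) (x1 : x ∉ φ.range) :
    Nonempty ((𝐍 φ.range) ⧸ (center S).subgroupOf (𝐍 φ.range) ≃* Wr) := by
  obtain ⟨x, α, hx, x1, h, k1, k2, k3, m, zm, hm⟩ := adj2 hφ sr k hx x1
  let π := QuotientGroup.mk' ((center S).subgroupOf (𝐍 φ.range))
  let i : Wr →* 𝐍 φ.range := φ.codRestrict _ fun m => le_norm_self _ ⟨m, rfl⟩
  have one : ∀ g, π g = 1 ↔ (g : S) ∈ zpowers (φ z) := fun g => by
    rw [← center_eq hφ sr k]; exact QuotientGroup.eq_one_iff g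
  have ker : ∀ m, π.comp i m = 1 ↔ Zz m := fun m => by
    rw [MonoidHom.comp_apply, one, ← center_range hφ]
    constructor
    · exact fun e => center_cases m fun y => hφ (by
        rw [map_mul, map_mul]; exact mem_cent.1 e.2 _ ⟨y, rfl⟩)
    · rw [center_range hφ]
      rintro (rfl | rfl)
      exacts [by rw [map_one]; exact one_mem _, mem_zpowers _]
  have tz : ∀ u, Zz u → th u = 1 := (by decide : ∀ u, Zz u → th0 u = 1)
  refine iso_ext (π.comp i) th α (x := π ⟨x, hx⟩) (y := a1 * b2) (fun m => ?_) (fun m => ?_) ?_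
    (by decide) (fun m => ?_) (fun m e => ?_) (by decide +kernel : ∀ m, th0 m * (a1 * b2) ≠ 1)
    (fun g => ?_) (by decide +kernel : ∀ g, ∃ m, g = th0 m ∨ g = th0 m * (a1 * b2))
  · simp only [MonoidHom.comp_apply, ← map_mul]
    congr 1
    exact Subtype.ext (show x * φ m = φ (α m) * x by rw [h]; group)
  · have : MonoidHom.eqLocus ((MulAut.conj (a1 * b2)).toMonoidHom.comp th)
        (th.comp α.toMonoidHom) = ⊤ := by
      have g : ∀ g g', Zz (g'⁻¹ * α g) → th (α g) = th g' := fun g g' e => by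
        rw [show α g = g' * (g'⁻¹ * α g) by group, map_mul, tz _ e, mul_one]
      refine eq_top ?_ ?_ ?_
      · exact Eq.trans (by decide) (g _ _ k1).symm
      · exact Eq.trans (by decide) (g _ _ k2).symm
      · exact Eq.trans (by decide) (g _ _ k3).symm
    have e : a1 * b2 * th m * (a1 * b2)⁻¹ = th (α m) := this.ge (mem_top m)
    rw [← e]; group
  · rw [← map_mul, ← (ker m).2 zm]
    exact congrArg π (Subtype.ext hm.symm)
  · rw [ker]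
    exact (by decide +kernel : ∀ u, Zz u ↔ th0 u = 1) m
  · rw [MonoidHom.comp_apply, ← map_mul, one] at e
    have : φ m * x ∈ φ.range := (zpowers_le.2 ⟨z, rfl⟩ : zpowers (φ z) ≤ φ.range) e
    exact x1 ((φ.range.mul_mem_cancel_left ⟨m, rfl⟩).1 this)
  · obtain ⟨⟨g, hg⟩, rfl⟩ := QuotientGroup.mk'_surjective _ g
    by_cases c : g ∈ φ.range
    · obtain ⟨m, rfl⟩ := c
      exact ⟨m, Or.inl rfl⟩
    · obtain ⟨m, e⟩ := mul_mem_range hφ sr k hg (inv_mem hx) c fun e => x1 (inv_mem_iff.1 e)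
      refine ⟨m, Or.inr ?_⟩
      rw [MonoidHom.comp_apply, ← map_mul]
      exact congrArg π (Subtype.ext (show g = φ m * x by rw [e]; group))

end Wr
end CF.Th5
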