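import Cfsg.Agent.Th5.A

/-! Thompson's lemma on `3`-elements moving a four-group (S4404). -/

set_option autoImplicit false
open Subgroup Cfsg CF.BG CF.BG2
open scoped commutatorElement

namespace CF.Th5

variable {G : Type*} [Group G] [Finite G]

structure Ctx (H M : Subgroup G) : Prop where
  sol : Sol H
  odd : Odd (♯H)
  ab : Abelem 2 M
  nm : H ≤ 𝐍 M

abbrev Vv (M : Subgroup G) (y : G) : Subgroup G := ⁅M, zpowers y⁆

structure Tr (H M : Subgroup G) (y : G) : Prop where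
  mem : y ∈ H
  pi : PiElt {3} y
  four : ♯(Vv M y) = 4

variable {H M W : Subgroup G} {x y z t g : G}

theorem Ctx.cop (k : Ctx H M) (hy : y ∈ H) : (♯(zpowers y)).Coprime (♯M) := by
  obtain ⟨n, hn⟩ := k.ab.pi.card_pow
  rw [hn]
  exact (Odd.coprime_two_right (odd_mono k.odd (zpowers_le.2 hy))).pow_right n

omit [Finite G] in
theorem Ctx.nz (k : Ctx H M) (hy : y ∈ H) : zpowers y ≤ 𝐍 M := (zpowers_le.2 hy).trans k.nm

omit [Finite G] in
theorem Ctx.le (k : Ctx H M) (hy : y ∈ H) : Vv M y ≤ M := comm_le_left (k.nz hy)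

theorem Ctx.fix (k : Ctx H M) (hy : y ∈ H) : Vv M y ⊓ 𝐂 (zpowers y) = ⊥ :=
  k.ab.abel.comm_inf_cent (k.nz hy) (k.cop hy)

theorem Ctx.comm_eq (k : Ctx H M) (hy : y ∈ H) (h1 : Vv M y ≤ W) (h2 : W ≤ M) :
    ⁅W, zpowers y⁆ = Vv M y :=
  le_antisymm (commutator_mono h2 le_rfl) (by
    conv_lhs => rw [Vv, ← comm_comm_eq (k.nz hy) (k.cop hy) (Or.inr k.ab.abel.sol)]
    exact commutator_mono h1 le_rfl)

omit [Finite G] in
theorem norm_of_le (h1 : Vv M y ≤ W) (h2 : W ≤ M) : zpowers y ≤ 𝐍 W :=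
  norm_of_comm_le ((commutator_mono h2 le_rfl).trans h1)

omit [Finite G] in
theorem Ctx.cj_V (k : Ctx H M) (hg : g ∈ H) (y : G) : cj g (Vv M y) = Vv M (g * y * g⁻¹) := by
  rw [Vv, cj_comm, cj_of_norm (k.nm hg), cj_zpowers]

omit [Finite G] in
theorem Tr.conj (a : Tr H M y) (k : Ctx H M) (hg : g ∈ H) : Tr H M (g * y * g⁻¹) :=
  ⟨H.mul_mem (H.mul_mem hg a.mem) (H.inv_mem hg), a.pi.conj g, by rw [← k.cj_V hg, card_cj, a.four]⟩

omit [Finite G] in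
theorem Tr.ne_bot (a : Tr H M y) : Vv M y ≠ ⊥ := fun h => by
  have := a.four
  rw [h] at this
  simp at this

theorem Ctx.norm3 (k : Ctx H M) (a : Tr H M y) (b : Tr H M z) (c : Tr H M t)
    (h : ♯(Vv M y ⊔ Vv M z ⊔ Vv M t) = 16) : y ∈ 𝐍 (Vv M z) := by
  set W := Vv M y ⊔ Vv M z ⊔ Vv M t with hW
  set L := zpowers y ⊔ zpowers z ⊔ zpowers t with hL
  have wM : W ≤ M := sup_le (sup_le (k.le a.mem) (k.le b.mem)) (k.le c.mem)
  have l1 : Vv M y ≤ W := le_sup_left.trans le_sup_left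
  have l2 : Vv M z ≤ W := le_sup_right.trans le_sup_left
  have l3 : Vv M t ≤ W := le_sup_right
  have m1 : zpowers y ≤ L := le_sup_left.trans le_sup_left
  have m2 : zpowers z ≤ L := le_sup_right.trans le_sup_left
  have m3 : zpowers t ≤ L := le_sup_right
  have LH : L ≤ H :=
    sup_le (sup_le (zpowers_le.2 a.mem) (zpowers_le.2 b.mem)) (zpowers_le.2 c.mem)
  have n : L ≤ 𝐍 W := sup_le (sup_le (norm_of_le l1 wM) (norm_of_le l2 wM)) (norm_of_le l3 wM)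
  have e1 := k.comm_eq a.mem l1 wM
  have e2 := k.comm_eq b.mem l2 wM
  have e3 := k.comm_eq c.mem l3 wM
  have d := der_le_cent (k.sol.mono LH) (odd_mono k.odd LH) n (k.ab.le wM) h
    (le_antisymm (comm_le_left n) (sup_le (sup_le (e1 ▸ commutator_mono le_rfl m1)
      (e2 ▸ commutator_mono le_rfl m2)) (e3 ▸ commutator_mono le_rfl m3)))
    (fun K hK => sup_le (sup_le
      (zpowers_le.2 (hK _ (m1 (mem_zpowers _)) a.pi (e1 ▸ a.four)))
      (zpowers_le.2 (hK _ (m2 (mem_zpowers _)) b.pi (e2 ▸ b.four))))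
      (zpowers_le.2 (hK _ (m3 (mem_zpowers _)) c.pi (e3 ▸ c.four))))
  have hc : ⁅y, z⁆ ∈ 𝐂 W := d (commutator_mem_commutator (m1 (mem_zpowers _)) (m2 (mem_zpowers _)))
  apply mem_norm_of_cj_le
  have : cj y (Vv M z) = ⁅W, zpowers (y * z * y⁻¹)⁆ := by
    rw [← e2, cj_comm, cj_of_norm (n (m1 (mem_zpowers _))), cj_zpowers]
  rw [this]
  have h1 : zpowers (y * z * y⁻¹) ≤ zpowers ⁅y, z⁆ ⊔ zpowers z := by
    rw [zpowers_le, show y * z * y⁻¹ = ⁅y, z⁆ * z by rw [commutatorElement_def]; group]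
    exact mul_mem_sup (mem_zpowers _) (mem_zpowers _)
  refine (commutator_mono le_rfl h1).trans (comm_sup_le' ?_ e2.le ?_ (norm_of_le le_rfl (k.le b.mem)))
  · rw [comm_eq_bot'.2 (zpowers_le.2 hc)]; exact bot_le
  · exact norm_of_cent ((zpowers_le.2 hc).trans (cent_anti l2))

theorem card_inf_cases {A B : Subgroup G} (a : ♯A = 4) (h : A ⊓ B ≠ ⊥) : ♯(A ⊓ B) = 2 ∨ A ≤ B := by
  have h1 : ♯(A ⊓ B) ∣ 2 ^ 2 := by rw [show 2 ^ 2 = 4 by norm_num, ← a]; exact card_dvd inf_le_left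
  obtain ⟨j, hj, e⟩ := (Nat.dvd_prime_pow Nat.prime_two).1 h1
  interval_cases j
  · exact absurd (card_eq_one'.1 (by simpa using e)) h
  · exact Or.inl (by simpa using e)
  · right
    have := eq_of_card_eq (inf_le_left : A ⊓ B ≤ A) (by rw [e, a]; norm_num)
    exact this ▸ inf_le_right

theorem Ctx.of_norm (k : Ctx H M) (a : Tr H M y) (b : Tr H M z) (n : y ∈ 𝐍 (Vv M z))
    (h : Vv M y ⊓ Vv M z ≠ ⊥) : Vv M y = Vv M z := by
  rcases card_inf_cases a.four h with e | e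
  · exfalso
    have := cent_of_two (norm_inf (norm_of_le le_rfl (k.le a.mem)) (zpowers_le.2 n)) e
    exact h (eq_bot_mono (k.fix a.mem) (le_inf inf_le_left (cent_symm this)))
  · exact eq_of_card_eq e (by rw [a.four, b.four])

omit [Finite G] in
theorem Ctx.card_sup (k : Ctx H M) {A B : Subgroup G} (a : A ≤ M) (b : B ≤ M) :
    ♯(A ⊔ B) * ♯(A ⊓ B) = ♯A * ♯B :=
  card_sup_mul_card_inf (Or.inl (norm_of_cent (k.ab.abel.cent a b)))

theorem Ctx.cent (k : Ctx H M) (a : Tr H M y) (b : Tr H M z) (h : Vv M y ⊓ Vv M z = ⊥) :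
    y ∈ 𝐂 (Vv M z) := by
  have e := k.card_sup (k.le a.mem) (k.le b.mem)
  rw [h, a.four, b.four] at e
  have n := k.norm3 a b b (by rw [sup_assoc, sup_idem]; simpa using e)
  have : ⁅Vv M z, zpowers y⁆ = ⊥ := eq_bot_mono h
    (le_inf (commutator_mono (k.le b.mem) le_rfl) (comm_le_left (zpowers_le.2 n)))
  exact comm_eq_bot'.1 this (mem_zpowers y)

/-- the block containing `Vv M x`. -/
def Blk (H M : Subgroup G) (x : G) : Subgroup G :=
  sSup {U | ∃ z, Tr H M z ∧ Vv M z ⊓ Vv M x ≠ ⊥ ∧ U = Vv M z}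

omit [Finite G] in
theorem le_Blk (b : Tr H M z) (h : Vv M z ⊓ Vv M x ≠ ⊥) : Vv M z ≤ Blk H M x :=
  le_sSup ⟨z, b, h, rfl⟩

omit [Finite G] in
theorem Tr.le_Blk (a : Tr H M x) : Vv M x ≤ Blk H M x :=
  Th5.le_Blk a (by rw [inf_idem]; exact a.ne_bot)

omit [Finite G] in
theorem Blk_le (h : ∀ z, Tr H M z → Vv M z ⊓ Vv M x ≠ ⊥ → Vv M z ≤ W) : Blk H M x ≤ W :=
  sSup_le (by rintro _ ⟨z, b, e, rfl⟩; exact h z b e)

omit [Finite G] in
theorem Ctx.Blk_le (k : Ctx H M) : Blk H M x ≤ M := Th5.Blk_le fun _ b _ => k.le b.mem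

theorem Ctx.card_Blk (k : Ctx H M) (a : Tr H M x) : ♯(Blk H M x) ∣ 8 := by
  by_cases h : ∀ z, Tr H M z → Vv M z ⊓ Vv M x ≠ ⊥ → Vv M z ≤ Vv M x
  · exact (card_dvd (Th5.Blk_le h)).trans (by rw [a.four]; norm_num)
  push Not at h
  obtain ⟨y, b, h1, h2⟩ := h
  have c2 := (card_inf_cases b.four h1).resolve_right h2
  have e := k.card_sup (k.le b.mem) (k.le a.mem)
  rw [c2, a.four, b.four] at e
  have c8 : ♯(Vv M y ⊔ Vv M x) = 8 := by omega
  rw [← c8]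
  refine card_dvd (Th5.Blk_le fun z c h3 => ?_)
  by_contra h4
  have c2' := (card_inf_cases c.four (B := Vv M y ⊔ Vv M x)
    (ne_bot_mono h3 (inf_le_inf_left _ le_sup_right))).resolve_right h4
  have e' := k.card_sup (sup_le (k.le b.mem) (k.le a.mem)) (k.le c.mem)
  rw [inf_comm, c2', c8, c.four] at e'
  exact h2 (k.of_norm b a (k.norm3 b a c (by omega)) h1).le

theorem Ctx.trans (k : Ctx H M) (a : Tr H M x) (b : Tr H M z) (c : Tr H M t)
    (h1 : Vv M z ⊓ Vv M x ≠ ⊥) (h2 : Vv M t ⊓ Vv M x ≠ ⊥) : Vv M z ⊓ Vv M t ≠ ⊥ := by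
  intro h
  have e := k.card_sup (k.le b.mem) (k.le c.mem)
  rw [h, b.four, c.four] at e
  have := Nat.le_of_dvd (by norm_num)
    ((card_dvd (sup_le (le_Blk b h1) (le_Blk c h2))).trans (k.card_Blk a))
  simp at e
  omega

theorem Ctx.norm_Blk (k : Ctx H M) (a : Tr H M x) (hg : g ∈ H)
    (h : cj g (Vv M x) ⊓ Vv M x ≠ ⊥) : g ∈ 𝐍 (Blk H M x) := by
  apply mem_norm_of_cj_le
  rw [cj_le_iff]
  refine Th5.Blk_le fun z b e => ?_
  rw [← cj_le_iff, k.cj_V hg]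
  refine le_Blk (b.conj k hg) (k.trans (a.conj k hg) (b.conj k hg) a ?_ ?_)
  · rw [← k.cj_V hg, ← k.cj_V hg, ← cj_inf]; simpa using e
  · rw [← k.cj_V hg, inf_comm]; exact h

theorem Ctx.norm_Blk' (k : Ctx H M) (a : Tr H M x) (b : Tr H M y) : y ∈ 𝐍 (Blk H M x) := by
  by_cases h : Vv M y ⊓ Vv M x = ⊥
  · refine k.norm_Blk a b.mem ?_
    rw [cj_of_cent (k.cent b a h), inf_idem]
    exact a.ne_bot
  · exact norm_of_le (le_Blk b h) k.Blk_le (mem_zpowers y)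

theorem Ctx.final (k : Ctx H M) (a : Tr H M x) {r : ℕ} {F : Subgroup G} (e : Elem r 3 F H)
    (n : F ≤ 𝐍 (Blk H M x)) : ¬ Cyc (F ⊓ 𝐂 (Vv M x)) := by
  have hr := e.prime
  have r2 : r ≠ 2 := ne_two_of_odd k.odd e.dvd'
  have d : (𝐂 (Blk H M x)).relIndex F ∣ 168 := by
    have h8 : ♯(Blk H M x) ∣ 2 ^ 3 := k.card_Blk a
    obtain ⟨j, hj, c⟩ := (Nat.dvd_prime_pow Nat.prime_two).1 h8
    refine (idx_dvd Nat.prime_two (k.ab.le k.Blk_le) c n).trans ?_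
    interval_cases j <;> simp [Finset.prod_range_succ]
  have l1 : logn r ((𝐂 (Blk H M x)).relIndex F) ≤ 1 := by
    by_contra h
    have h1 : r ^ 2 ∣ 168 :=
      ((pow_dvd_iff_le_logn hr (relIndex_ne_zero' _ _)).2 (by omega)).trans d
    have h2 : r ^ 2 ≤ 168 := Nat.le_of_dvd (by norm_num) h1
    have h3 : r < 13 := by nlinarith
    interval_cases r <;> first | exact r2 rfl | exact absurd h1 (by decide) | exact absurd hr (by decide)
  have l2 := logn_inf_add (p := r) (𝐂 (Blk H M x)) F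
  rw [e.log] at l2
  intro c
  have c' : Cyc (𝐂 (Blk H M x) ⊓ F) :=
    c.mono (le_inf inf_le_right (inf_le_left.trans (cent_anti a.le_Blk)))
  have := (e.ab.le (inf_le_right : 𝐂 (Blk H M x) ⊓ F ≤ F)).cyc_iff.1 c'
  omega

theorem Ctx.three (k : Ctx H M) (a : Tr H M x) (r : 3 ≤ pRank 3 H) :
    ∃ F, Elem 3 3 F H ∧ F ≤ 𝐍 (Blk H M x) := by
  obtain ⟨P, hP, xP⟩ := exists_syl_le (zpowers_le.2 a.mem) a.pi.zpowers
  obtain ⟨A, eA, nA⟩ := exists_normal_elem (n := 3) (by norm_num) (by norm_num) hP.pi le_rfl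
    (by rw [hP.syl_pRank]; exact r)
  refine ⟨A, eA.mono hP.le, fun u hu => k.norm_Blk a (hP.le (eA.le hu)) fun h => ?_⟩
  have uH := hP.le (eA.le hu)
  have h1 : u * x * u⁻¹ ∈ 𝐂 (Vv M x) := k.cent (a.conj k uH) a (by rw [← k.cj_V uH]; exact h)
  have h2 : u⁻¹ * x * u⁻¹⁻¹ ∈ 𝐂 (Vv M x) := k.cent (a.conj k (H.inv_mem uH)) a (by
    rw [← k.cj_V (H.inv_mem uH), ← cj_eq_bot (g := u), cj_inf, cj_cj_inv, inf_comm]; exact h)
  have u3 : u ^ 3 = 1 := eA.ab.pow u hu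
  have hc : x * u * x⁻¹ ∈ A := nA.conj_mem (xP (mem_zpowers x)) hu
  have cm := eA.abel.mul_comm hc hu
  have key : x = (u * x * u⁻¹) * (u⁻¹ * x * u⁻¹⁻¹)⁻¹ * (u * x * u⁻¹) := by
    have uu : u⁻¹ * u⁻¹ = u := by
      rw [← mul_inv_rev, inv_eq_iff_mul_eq_one, ← u3]; simp [pow_succ]
    have h3 : u * x * u * x⁻¹ = x * u * x⁻¹ * u := by rw [cm]; group
    calc x = (x * u * x⁻¹ * u) * u⁻¹ * x * u⁻¹ := by group
      _ = u * x * u * x⁻¹ * u⁻¹ * x * u⁻¹ := by rw [h3]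
      _ = u * x * (u⁻¹ * u⁻¹) * x⁻¹ * (u * u) * x * u⁻¹ := by
        rw [uu, show u * u = u⁻¹ by rw [eq_inv_iff_mul_eq_one, ← u3]; simp [pow_succ]]
      _ = _ := by group
  have h4 : x ∈ 𝐂 (Vv M x) := by
    have := mul_mem (mul_mem h1 (inv_mem h2)) h1
    rwa [← key] at this
  exact a.ne_bot (eq_bot_mono (k.fix a.mem) (le_inf le_rfl (cent_symm (zpowers_le.2 h4))))

theorem Ctx.other (k : Ctx H M) (a : Tr H M x) (r : pRank 3 H ≤ 2) {p : ℕ} (hp : p.Prime)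
    (p2 : p ≠ 2) (p3 : p ≠ 3) (hg : g ∈ H) (e : PiElt {p} g) : g ∈ 𝐍 (Blk H M x) := by
  set X := closure {y | Tr H M y} with hX
  have XH : X ≤ H := (closure_le _).2 fun y hy => hy.mem
  have XB : X ≤ 𝐍 (Blk H M x) := (closure_le _).2 fun y hy => k.norm_Blk' a hy
  have nX : H ≤ 𝐍 X := le_norm_of_cj_le fun h hh => by
    rw [cj_le_iff]
    exact (closure_le _).2 fun y hy => mem_cj_inv.2 (subset_closure (hy.conj k hh))
  have xX : zpowers x ≤ X := zpowers_le.2 (subset_closure a)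
  obtain ⟨R, hR, xR⟩ := exists_syl_le xX a.pi.zpowers
  obtain ⟨b, hb, n, hn, bn⟩ := hR.syl_frattini ⟨XH, nX⟩ hg
  obtain ⟨u, v, hu, hv, pu, pv, uv⟩ := exists_piPart {p} n
  have nH := (mem_inf.1 hn).1
  have nR := (mem_inf.1 hn).2
  have uC : zpowers u ≤ 𝐂 R := by
    by_contra nc
    have := dvd_of_not_cent (p := 3) (by norm_num) (by norm_num) hR.pi
      ((pRank_mono 3 (hR.le.trans XH)).trans r) p3 pu.zpowers
      (zpowers_le.2 ((zpowers_le.2 nR) hu)) nc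
    have h8 : p ∣ 2 ^ 3 := by simpa using this
    exact p2 ((Nat.prime_dvd_prime_iff_eq hp Nat.prime_two).1 (hp.dvd_of_dvd_pow h8))
  have uH : u ∈ H := (zpowers_le.2 nH) hu
  have uB : u ∈ 𝐍 (Blk H M x) := k.norm_Blk a uH (by
    have : u * x * u⁻¹ = x := by
      rw [← mem_cent.1 (uC (mem_zpowers u)) x (xR (mem_zpowers x))]; group
    rw [k.cj_V uH, this, inf_idem]; exact a.ne_bot)
  have gN : zpowers g ≤ 𝐍 X := zpowers_le.2 (nX hg)
  have vX : v ∈ X := by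
    refine pv.mem_of_relIndex (L := X ⊔ zpowers g) ?_ (sup_le (le_norm_self X) gN) ?_
    · refine (zpowers_le.2 ?_ : zpowers n ≤ _) hv
      rw [show n = b⁻¹ * g by rw [← bn]; group]
      exact mul_mem_sup (inv_mem hb) (mem_zpowers g)
    · rw [relIndex_sup_norm' (Or.inl gN)]
      exact (e.zpowers.relIndex X).compl_compl
  rw [← bn, ← uv]
  exact mul_mem (XB hb) (mul_mem uB (XB vX))

theorem Ctx.main (k : Ctx H M) (a : Tr H M x) {p : ℕ} {E : Subgroup G} (e : Elem p 3 E H) :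
    ∃ r F, Elem r 3 F H ∧ ¬ Cyc (F ⊓ 𝐂 (Vv M x)) := by
  by_cases r : 3 ≤ pRank 3 H
  · obtain ⟨F, f, n⟩ := k.three a r
    exact ⟨3, F, f, k.final a f n⟩
  refine ⟨p, E, e, k.final a e fun g hg => k.other a (by omega) e.prime
    (ne_two_of_odd k.odd e.dvd') ?_ (e.le hg) (e.pi.elt hg)⟩
  rintro rfl
  exact r e.le_pRank

end CF.Th5
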