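import Cfsg.Agent.Th5.C

/-! Minimal `L`-invariant 2-groups with a non-cyclic abelian subgroup of order 8 (S4409). -/

set_option autoImplicit false
open Subgroup Cfsg CF.BG CF.BG2
open CF.Invol (IsQ8)
open scoped commutatorElement

namespace CF.Th5

variable {G : Type*} [Group G] [Finite G] {A B H K L Q T U V X Y : Subgroup G} {i j : G}

structure Mn (X L : Subgroup G) : Prop where
  pi : PiGrp {2} X
  odd : Odd (♯L)
  nm : L ≤ 𝐍 X
  ns : ¬ Sm X
  min : ∀ K, K < X → L ≤ 𝐍 K → Sm K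

theorem Mn.cop (m : Mn X L) : (♯L).Coprime (♯X) := cop_of_odd m.odd m.pi

omit [Finite G] in
theorem Mn.eq (m : Mn X L) (h1 : ⁅X, L⁆ ≤ K) (h2 : K ≤ X) (h : ¬ Sm K) : K = X := by
  by_contra e
  exact h (m.min K (lt_of_le_of_ne h2 e) (norm_of_comm_le ((commutator_mono h2 le_rfl).trans h1)))

omit [Finite G] in
theorem q8_norm_zp (q : IsQ8 Q i j) {g : G} (h : ⁅i, g⁆ ∈ 𝐙 Q) :
    Transfer.cj g (zpowers i) = zpowers i := by
  have h1 : g * i * g⁻¹ ∈ zpowers i := by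
    rw [q8_Z q] at h
    have h2 : ⁅i, g⁆ ∈ zpowers i := (zpowers_le.2 (mul_mem (mem_zpowers i) (mem_zpowers i))) h
    rw [show g * i * g⁻¹ = ⁅i, g⁆⁻¹ * i by rw [commutatorElement_def]; group]
    exact mul_mem (inv_mem h2) (mem_zpowers i)
  have h3 : g * i * g⁻¹ * (g * i * g⁻¹) ≠ 1 := fun e => q.sq_ne (by
    have : g * (i * i) * g⁻¹ = 1 := by rw [← e]; group
    simpa using this)
  change cj g (zpowers i) = _
  rw [cj_zpowers]
  rcases q.eq_or_inv h1 h3 with e | e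
  · rw [e]
  · rw [e, zpowers_inv]

theorem Mn.caseA (m : Mn X L) (h : ⁅X, L⁆ ≠ X) : Abel X ∨
    ∃ Y i j, IsQ8 Y i j ∧ Y ≤ X ∧ Y.relIndex X = 2 ∧ Y ⊔ (X ⊓ 𝐂 Y) = X := by
  set Y := ⁅X, L⁆ with hY
  have YX : Y ≤ X := comm_le_left m.nm
  have nY : L ≤ 𝐍 Y := norm_comm_right X L
  have xY : X ≤ 𝐍 Y := norm_comm_left X L
  have kY := m.pi.le YX
  by_cases c : L ≤ 𝐂 Y
  · left
    have c' := cent_of_comm_le_cent m.nm m.cop (cent_symm c)
    by_contra na
    refine m.ns fun A hA a nc e => ?_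
    refine m.min A (lt_of_le_of_ne hA ?_) (norm_of_cent (c'.trans (cent_anti hA))) A le_rfl a nc e
    rintro rfl
    exact na a
  have sY := m.min Y (lt_of_le_of_ne YX h) nY
  have sup := comm_sup_inf_cent m.nm m.cop (Or.inr m.pi.sol)
  rcases sY.key kY nY m.odd c with e | ⟨i, j, q⟩
  · left
    have z : Y ⊓ 𝐂 X = Y := v4_irr e nY m.odd c inf_le_left (norm_inf_cent nY m.nm)
      (m.pi.inf_cent_ne_bot kY xY e.ne_bot)
    obtain ⟨g, hg, gY⟩ := Set.not_subset.1 (show ¬ (X : Set G) ⊆ Y from fun l => h (le_antisymm YX l))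
    have a : Abel (Y ⊔ zpowers g) := e.abel.sup (abel_zpowers g)
      ((z ▸ inf_le_right : Y ≤ 𝐂 X).trans (cent_anti (zpowers_le.2 hg)))
    have l : Y ⊔ zpowers g ≤ X := sup_le YX (zpowers_le.2 hg)
    rw [← m.eq le_sup_left l fun s => ?_]
    · exact a
    · have e' := s.elem (m.pi.le l) le_rfl a fun c => e.not_cyc (c.mono le_sup_left)
      exact gY (e.eq_of_le e' le_sup_left ▸ mem_sup_right (mem_zpowers g))
  right
  set C := X ⊓ 𝐂 L with hC
  have nC : L ≤ 𝐍 C := norm_of_cent' inf_le_right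
  have h1 := q8_comm_le q nY m.odd c (m.pi.le inf_le_left) (inf_le_left.trans xY) nC
  have cZ : L ≤ 𝐂 (𝐙 Y) := cent_of_two (nY.trans (norm_center Y)) (by rw [q8_Z q, q8_card_Z q])
  have h2 : ⁅⁅L, Y⁆, C⁆ ≤ ⊥ := three_subgroup (by simp) (by simp) (by simp)
    (comm_eq_bot'.2 (cZ.trans (cent_anti h1))).le
    (by rw [comm_eq_bot.2 (inf_le_right : C ≤ 𝐂 L)]; simp)
  rw [commutator_comm L, hY, comm_comm_eq m.nm m.cop (Or.inr m.pi.sol), ← hY, le_bot_iff,
    comm_eq_bot'] at h2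
  obtain ⟨g, hg, gY⟩ := Set.not_subset.1 (show ¬ (C : Set G) ⊆ Y from fun l =>
    h (le_antisymm YX (sup ▸ sup_le le_rfl l)))
  have kC : IsPGroup 2 C := (m.pi.le inf_le_left).isPGroup
  obtain ⟨n, g1, g2⟩ := CF.Solv.exists_pow_notMem_pow_mem kC (U := Y.subgroupOf C) (g := ⟨g, hg⟩) gY
  obtain ⟨c, cC, c1, c2⟩ : ∃ c ∈ C, c ∉ Y ∧ c * c ∈ Y :=
    ⟨g ^ 2 ^ n, C.pow_mem hg _, g1, by rw [← sq]; exact g2⟩
  have ci : i * c = c * i := mem_cent.1 (h2 cC) i q.left_mem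
  obtain ⟨t, tX, t1, t2, ti⟩ : ∃ t ∈ X, t ∉ Y ∧ t * t = 1 ∧ i * t = t * i := by
    have : c * c ∈ (center Y).map Y.subtype := by
      rw [center_map_subtype]; exact mem_inf.2 ⟨c2, h2 (C.mul_mem cC cC)⟩
    rcases q.mem_map_center_iff.1 this with e | e
    · exact ⟨c, (mem_inf.1 cC).1, c1, e, ci⟩
    · refine ⟨c * i, X.mul_mem (mem_inf.1 cC).1 (YX q.left_mem),
        fun hh => c1 ((Y.mul_mem_cancel_right q.left_mem).1 hh), ?_, by rw [← mul_assoc, ci]⟩
      rw [← q.pow_four]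
      nth_rewrite 1 [← e]
      rw [mul_assoc c i, ← mul_assoc i c, ci]; group
  have l : Y ⊔ zpowers t ≤ X := sup_le YX (zpowers_le.2 tX)
  have e := m.eq le_sup_left l (not_sm_of_invol q.orderOf_left t2
    (fun hh => t1 ((zpowers_le.2 q.left_mem) hh)) ti (mem_sup_left q.left_mem)
    (mem_sup_right (mem_zpowers t)))
  refine ⟨Y, i, j, q, YX, ?_, le_antisymm (sup_le YX inf_le_left) ?_⟩
  · have ct : ♯(zpowers t) = 2 := by
      rw [Nat.card_zpowers]
      exact orderOf_eq_of_pow Nat.prime_two (by rw [sq, t2]) fun e => t1 (e ▸ one_mem _)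
    rw [← e, relIndex_sup_norm' (Or.inl ((zpowers_le.2 tX).trans xY)), relIndex_of_inf_bot, ct]
    rw [inf_comm]
    exact inf_eq_bot_of_prime_of_not_le (by rw [ct]; norm_num) (by rwa [zpowers_le])
  · conv_lhs => rw [← sup]
    exact sup_le_sup_left (le_inf inf_le_left h2) _

theorem Mn.phi (m : Mn X L) (h : ⁅X, L⁆ = X) (na : ¬ Abel X) : 𝚽 X ≤ 𝐂 X := by
  have x1 : X ≠ ⊥ := fun e => na (e ▸ abel_bot)
  have nP : L ≤ 𝐍 (𝚽 X) := le_norm_Phi m.nm
  have xP : X ≤ 𝐍 (𝚽 X) := (Phi_normal X).norm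
  have kP := m.pi.le (Phi_le X)
  by_cases c : L ≤ 𝐂 (𝚽 X)
  · have h2 : ⁅⁅L, X⁆, 𝚽 X⁆ ≤ ⊥ := three_subgroup (by simp) (by simp) (by simp)
      (comm_eq_bot'.2 (c.trans (cent_anti (comm_le_right xP)))).le
      (by rw [comm_eq_bot'.2 c]; simp)
    rwa [commutator_comm L, h, le_bot_iff, comm_eq_bot'] at h2
  rcases (m.min _ (Phi_lt x1) nP).key kP nP m.odd c with e | ⟨i, j, q⟩
  · have z : 𝚽 X ⊓ 𝐂 X = 𝚽 X := v4_irr e nP m.odd c inf_le_left (norm_inf_cent nP m.nm)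
      (m.pi.inf_cent_ne_bot kP xP e.ne_bot)
    exact z ▸ inf_le_right
  · have h1 := q8_comm_le q nP m.odd c m.pi xP m.nm
    have : X ⊓ 𝐂 (𝚽 X) = X := eq_of_le_sup_Phi inf_le_left fun g hg => by
      obtain ⟨u, hu, e⟩ := q.exists_mul_of_cj_eq
        (q8_norm_zp q (h1 (commutator_mem_commutator q.left_mem hg)))
        (q8_norm_zp q.symm (h1 (commutator_mem_commutator q.right_mem hg)))
      rw [show g = u * (u⁻¹ * g) by group, sup_comm]
      exact mul_mem_sup hu (mem_inf.2 ⟨X.mul_mem (X.inv_mem (Phi_le X hu)) hg, e⟩)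
    exact absurd ((Phi_le X).trans (this.ge.trans inf_le_right)) (q8_not_abel q)

theorem card_le_of_index_two (hA : A ≤ X) (a : Abel A) (d : ⁅X, X⁆ ≤ 𝐙 X) {w : G} (hw : w ∈ X)
    (e : X ≤ A ⊔ zpowers w) : ♯A ≤ ♯(𝐙 X) * ♯(𝐙 X) := by
  have cm : ∀ x ∈ X, ⁅x, w⁆ ∈ 𝐙 X := fun x hx => d (commutator_mem_commutator hx hw)
  let f : A →* G := MonoidHom.mk' (fun x => ⁅(x : G), w⁆) fun x y => by
    have h1 := mem_cent.1 (mem_inf.1 (cm y (hA y.2))).2 x (hA x.2)
    have h2 := mem_cent.1 (mem_inf.1 (cm y (hA y.2))).2 _ (mem_inf.1 (cm x (hA x.2))).1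
    rw [h2, coe_mul, show ⁅(x : G) * y, w⁆ = x * ⁅(y : G), w⁆ * (x : G)⁻¹ * ⁅(x : G), w⁆ by
      simp only [commutatorElement_def]; group, h1]
    group
  have h1 : f.range ≤ 𝐙 X := by rintro _ ⟨x, rfl⟩; exact cm x (hA x.2)
  have h2 : f.ker.map A.subtype ≤ 𝐙 X := by
    rintro _ ⟨x, hx, rfl⟩
    refine mem_inf.2 ⟨hA x.2, cent_anti e ?_⟩
    rw [cent_sup, cent_zpowers]
    exact mem_inf.2 ⟨a x.2, mem_cent1.2 (commutatorElement_eq_one_iff_mul_comm.1 hx)⟩
  have h3 := f.ker.card_mul_index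
  rw [index_ker] at h3
  have h4 := card_le h2
  rw [card_map A.subtype_injective] at h4
  rw [← h3]
  exact Nat.mul_le_mul h4 (card_le h1)

theorem Mn.caseB (m : Mn X L) (h : ⁅X, L⁆ = X) (na : ¬ Abel X) :
    IsSpecial 2 X ∧ (♯(𝐙 X) = 2 ∧ 32 ≤ ♯X ∨ ♯(𝐙 X) = 4) := by
  have p1 : 𝚽 X ≤ 𝐙 X := le_inf (Phi_le X) (m.phi h na)
  have d1 : ⁅X, X⁆ ≤ 𝚽 X := m.pi.der_le_Phi
  have d0 : ⁅X, X⁆ ≠ ⊥ := fun e => na (der_eq_bot.1 e)
  have nZ : L ≤ 𝐍 (𝐙 X) := m.nm.trans (norm_center X)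
  have sZ : Sm (𝐙 X) := m.min _ (lt_of_le_of_ne inf_le_left fun e => na (e ▸ center_abel X)) nZ
  have kZ : PiGrp {2} (𝐙 X) := m.pi.le inf_le_left
  have z1 : 𝐙 X ≤ ⁅X, X⁆ := by
    by_cases c : L ≤ 𝐂 (𝐙 X)
    · exact (le_inf inf_le_left (cent_symm c)).trans
        (CF.Coprime.inf_centralizer_le_commutator L X m.nm m.cop h)
    rcases sZ.key kZ nZ m.odd c with e | ⟨i, j, q⟩
    · exact (v4_irr e nZ m.odd c (d1.trans p1) (norm_commutator m.nm m.nm) d0).ge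
    · exact absurd (center_abel X) (q8_not_abel q)
  refine ⟨CF.Coprime.isSpecial_iff.2 ⟨m.pi.isPGroup, le_antisymm p1 (z1.trans d1),
    le_antisymm (d1.trans p1) z1⟩, ?_⟩
  by_cases c : Cyc (𝐙 X)
  swap
  · exact Or.inr (sZ.elem kZ le_rfl (center_abel X) c).card
  left
  have ab : Abelem 2 (𝐙 X) := by
    refine Abelem.mk' Nat.prime_two (center_abel X) fun z hz => ?_
    refine (((center_abel X).mem_Om (p := 2)).1 ((commutator_le.2 fun x hx y hy => ?_ :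
      ⁅X, X⁆ ≤ 𝛀 2 (𝐙 X)) (z1 hz))).2
    have h1 := (d1.trans p1) (commutator_mem_commutator hx hy)
    refine mem_Om h1 ?_
    have h2 := comm_pow_pow (mem_cent.1 (mem_inf.1 h1).2 x hx) (mem_cent.1 (mem_inf.1 h1).2 y hy) 2 1
    rw [← h2, pow_one, commutatorElement_eq_one_iff_mul_comm]
    exact (mem_cent.1 (mem_inf.1 (p1 (m.pi.pow_mem_Phi hx))).2 y hy).symm
  have c2 : ♯(𝐙 X) = 2 := by
    have h1 := ab.cyc_iff.1 c
    have h2 := kZ.logn_pos.2 (ne_bot_mono d0 (d1.trans p1))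
    rw [kZ.card_eq, show logn 2 (♯(𝐙 X)) = 1 by omega]; norm_num
  refine ⟨c2, ?_⟩
  have ns := m.ns
  simp only [Sm, not_forall, not_not] at ns
  obtain ⟨A, hA, a, -, c8⟩ := ns
  have lt : A < X := lt_of_le_of_ne hA (by rintro rfl; exact na a)
  have l3 : logn 2 (♯A) = 3 := by rw [c8]; exact logn_two_pow 3
  have l4 := m.pi.logn_lt lt
  by_cases l5 : logn 2 (♯X) = 4
  · obtain ⟨w, hw, e⟩ := exists_sup_zpowers_of_logn m.pi hA (by omega)
    have := card_le_of_index_two hA a (d1.trans p1) hw e.ge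
    rw [c2, c8] at this
    omega
  · rw [m.pi.card_eq]
    exact Nat.pow_le_pow_right (n := 2) (i := 5) (by norm_num) (by omega)

theorem not_sm_O (n : A ≤ 𝐍 H) (k : PiGrp {2} H) (c : 𝐂 H ≤ H) (a : Abel A) (nc : ¬ Cyc A)
    (c8 : ♯A = 8) : ¬ (Elem 2 2 H H ∨ ∃ i j, IsQ8 H i j) := by
  have kA : PiGrp {2} A := piGrp_of_card (k := 3) Nat.prime_two c8
  rintro (e | ⟨i, j, q⟩)
  · have d := idx_dvd (A := H ⊔ A) Nat.prime_two e.ab e.card (sup_le (le_norm_self H) n)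
    rw [le_antisymm c e.abel] at d
    have cm := card_mul_relIndex (le_sup_left : H ≤ H ⊔ A)
    have kK := k.sup kA (Or.inr n)
    have c9 : ♯(H ⊔ A) ≤ 8 := by
      rw [e.card] at cm
      rcases idx_le_two (kK.relIndex H) (by simpa [Finset.prod_range_succ] using d) with h | h <;>
        rw [h] at cm <;> omega
    have e1 := eq_of_card_le (le_sup_right : A ≤ H ⊔ A) (by omega)
    have l : H ≤ A := e1 ▸ le_sup_left
    have := card_le ((a.trans (cent_anti l)).trans c)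
    rw [c8, e.card] at this
    omega
  · have d := (relIndex_dvd_of_norm (K := H) n le_rfl).trans
      (by simpa [sup_eq_left.2 c] using q.relIndex_dvd_six)
    have cm := card_inf_mul_relIndex H A
    have c4 : 4 ≤ ♯(H ⊓ A) := by
      rcases idx_le_two (kA.relIndex H) d with h | h <;> rw [h] at cm <;> omega
    obtain ⟨x, hx, x2⟩ : ∃ x ∈ H ⊓ A, x * x ≠ 1 := by
      by_contra hh
      push Not at hh
      have := card_le (show H ⊓ A ≤ zpowers (i * i) from fun x hx =>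
        q8_mem_Z q (mem_inf.1 hx).1 (hh x hx))
      rw [q8_card_Z q] at this
      omega
    obtain ⟨y, q'⟩ := CF.Invol.exists_isQ8_of_mem q.nonempty_equiv.some (mem_inf.1 hx).1 x2
    obtain ⟨p, V, e⟩ := a.exists_elem_two nc
    obtain rfl : p = 2 := e.mem_of_pi kA
    obtain ⟨t, ht, tH⟩ : ∃ t ∈ V, t ∉ H := by
      by_contra hh
      push Not at hh
      have := card_le (show V ≤ zpowers (i * i) from fun x hx =>
        q8_mem_Z q (hh x hx) (by rw [← sq]; exact e.ab.pow x hx))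
      rw [q8_card_Z q, e.card] at this
      omega
    have t2 : t * t = 1 := by rw [← sq]; exact e.ab.pow t ht
    have tx : t * x * t⁻¹ = x := by rw [a.mul_comm (e.le ht) (mem_inf.1 hx).2]; group
    have ty : t * (t * y * t⁻¹) * t⁻¹ = y := by
      rw [show t * (t * y * t⁻¹) * t⁻¹ = (t * t) * y * (t * t)⁻¹ by group, t2]; group
    have nc' : ¬ Commute x (t * y * t⁻¹) := fun hh => q'.not_commute (by
      have := hh.conj t
      rwa [tx, ty] at this)
    have key : cj t (zpowers y) = zpowers y → False := fun hh => by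
      obtain ⟨u, hu, e'⟩ := q'.exists_mul_of_cj_eq (g := t)
        (by change cj t _ = _; rw [cj_zpowers, tx]) hh
      exact tH ((H.mul_mem_cancel_left (H.inv_mem hu)).1 (c e'))
    rcases (q'.mem _).1 (conj_mem_of_norm (n (e.le ht)) q'.right_mem) with
      h | h | h | h | h | h | h | h
    · exact nc' (h ▸ Commute.one_right x)
    · exact nc' (h ▸ (Commute.refl x).mul_right (Commute.refl x))
    · exact nc' (h ▸ Commute.refl x)
    · exact nc' (h ▸ (Commute.refl x).inv_right)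
    · exact key (by rw [cj_zpowers, h])
    · exact key (by rw [cj_zpowers, h, zpowers_inv])
    · rw [h, ← conj_mul, tx, h, ← mul_assoc] at ty
      exact x2 (by simpa using ty)
    · rw [h, ← conj_inv, ← conj_mul, tx, h] at ty
      apply q'.not_commute
      change x * y = y * x
      nth_rewrite 2 [← ty]
      group

end CF.Th5
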