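import Cfsg.Agent.Th5.A
import Cfsg.Agent.Fgs2.DQS
import Cfsg.Agent.Invol.Q8
import Cfsg.Agent.Coprime.Special

/-! 2-groups without non-cyclic abelian subgroups of order 8. -/

set_option autoImplicit false
open Subgroup Cfsg CF.BG CF.BG2
open CF.Invol (IsQ8)
open scoped commutatorElement

namespace CF.Th5

variable {G : Type*} [Group G] [Finite G] {A B K L Q T U V X Y : Subgroup G} {i j : G}

def Sm (K : Subgroup G) : Prop := ∀ A, A ≤ K → Abel A → ¬ Cyc A → ♯A ≠ 8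

theorem logn_two_pow (n : ℕ) : logn 2 (2 ^ n) = n := logn_pow Nat.prime_two n

theorem Sm.elem (h : Sm K) (k : PiGrp {2} K) (hA : A ≤ K) (a : Abel A) (c : ¬ Cyc A) :
    Elem 2 2 A K := by
  obtain ⟨p, V, e⟩ := a.exists_elem_two c
  obtain rfl : p = 2 := e.mem_of_pi (k.le hA)
  by_cases h3 : 3 ≤ logn 2 (♯A)
  · obtain ⟨B, h1, h2, h4⟩ := (k.le hA).exists_logn_between e.le (n := 3) (by rw [e.log]; omega) h3
    refine absurd ?_ (h B (h2.trans hA) (a.mono h2) fun c' => e.not_cyc (c'.mono h1))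
    rw [((k.le hA).le h2).card_eq, h4]; norm_num
  · have := (k.le hA).eq_of_logn_le e.le (by rw [e.log]; omega)
    exact this ▸ e.of_le (e.le.trans hA)

theorem Sm.cent_le (h : Sm K) (k : PiGrp {2} K) (e : Elem 2 2 V K) : K ⊓ 𝐂 V ≤ V := by
  intro g hg
  obtain ⟨h1, h2⟩ := mem_inf.1 hg
  have e' := h.elem k (sup_le e.le (zpowers_le.2 h1))
    (e.abel.sup (abel_zpowers g) (cent_symm (zpowers_le.2 h2)))
    fun c => e.not_cyc (c.mono le_sup_left)
  rw [e.eq_of_le e' le_sup_left]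
  exact mem_sup_right (mem_zpowers g)

theorem idx_le_two {n : ℕ} (k : PiNat {2} n) (d : n ∣ 6) : n = 1 ∨ n = 2 := by
  have := Nat.le_of_dvd (by norm_num) d
  have h3 : ¬ 3 ∣ n := k.not_dvd (by norm_num) (by simp)
  interval_cases n <;> omega

theorem key_type {K : Type*} [Group K] [Finite K] (k : PiGrp {2} (⊤ : Subgroup K))
    (h : Sm (⊤ : Subgroup K)) (nc : ¬ IsCyclic K) (aut : ¬ IsPGroup 2 (MulAut K)) :
    Elem 2 2 (⊤ : Subgroup K) ⊤ ∨ Nonempty (K ≃* QuaternionGroup 2) := by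
  have := Fact.mk Nat.prime_two
  have hK : IsPGroup 2 K := k.isPGroup.of_equiv topEquiv
  by_cases hn : ∀ A : Subgroup K, A.Normal → IsMulCommutative A → IsCyclic A
  · rcases CF.Solv.normalRankOne_cases hK hn with c | ⟨-, n, a, c, h1, h2, h3, h4, h5, -⟩
    · exact absurd c nc
    · exact Or.inr (CF.Fgs2.DQS_quaternion_of_not_isPGroup h5 h1 h2 h3 h4 aut)
  push Not at hn
  obtain ⟨V, nV, a, c⟩ := hn
  have e := h.elem k le_top (Abel.of_comm a) c
  have cl := h.cent_le k e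
  rw [top_inf_eq] at cl
  have ce : 𝐂 V = V := le_antisymm cl e.abel
  have d := idx_dvd (A := ⊤) Nat.prime_two e.ab e.card (normalIn_top.2 nV).norm
  rw [ce] at d
  have cm := card_mul_relIndex (le_top : V ≤ ⊤)
  rcases idx_le_two (k.relIndex V) (by simpa [Finset.prod_range_succ] using d) with h1 | h1
  · left
    exact top_le_iff.1 (relIndex_eq_one.1 h1) ▸ e
  right
  rw [h1, e.card] at cm
  have na : ¬ Abel (⊤ : Subgroup K) := fun a' => h ⊤ le_rfl a' (by rwa [cyc_top]) (by omega)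
  have c8 : Nat.card K = 2 ^ (2 + 1) := by rw [← card_top']; omega
  obtain ⟨x, hx⟩ : ∃ x : K, x ^ 2 ≠ 1 := by
    by_contra hx
    push Not at hx
    refine na (abel_of_forall fun x _ y _ => ?_)
    have inv : ∀ z : K, z⁻¹ = z := fun z => by rw [inv_eq_iff_mul_eq_one, ← sq, hx]
    rw [← inv (x * y), mul_inv_rev, inv, inv]
  have o4 : orderOf x = 4 := by
    obtain ⟨m, hm, e'⟩ := (Nat.dvd_prime_pow Nat.prime_two).1 (c8 ▸ orderOf_dvd_natCard x)
    interval_cases m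
    · exact absurd (by rw [(orderOf_eq_one_iff (x := x)).1 (by simpa using e')]; simp) hx
    · exact absurd (by rw [← show orderOf x = 2 by simpa using e']; exact pow_orderOf_eq_one x) hx
    · simpa using e'
    · exact absurd (isCyclic_of_orderOf_eq_card x (by rw [e', c8])) nc
  have ix : (zpowers x).index = 2 := by
    have := (zpowers x).card_mul_index
    rw [Nat.card_zpowers, o4, c8] at this
    omega
  obtain ⟨-, a, c, h2, h3, h4, h5⟩ := CF.Solv.cyclic_index_prime_cases c8 (cyc_zpowers x) ix (by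
    by_contra hh
    push Not at hh
    exact na (abel_of_forall fun x _ y _ => hh x y))
  rcases h5 with ⟨-, -, h5⟩ | ⟨-, h5⟩
  · have := h5 rfl; omega
  · exact CF.Fgs2.DQS_quaternion_of_not_isPGroup h5 le_rfl h3 (h2 ▸ ix) h4 aut

omit [Finite G] in
theorem odd_orderOf (o : Odd (♯A)) {g : G} (hg : g ∈ A) : Odd (orderOf g) :=
  Odd.of_dvd_nat o (orderOf_dvd_card' hg)

theorem cop_of_odd (o : Odd (♯A)) (k : PiGrp {2} K) : (♯A).Coprime (♯K) := by
  obtain ⟨n, hn⟩ := k.card_pow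
  rw [hn]
  exact (Odd.coprime_two_right o).pow_right n

theorem cent_of_cyc (k : PiGrp {2} K) (c : Cyc K) (n : A ≤ 𝐍 K) (o : Odd (♯A)) : A ≤ 𝐂 K :=
  fun _ hg => CF.Invol.mem_centralizer_of_isCyclic c k.isPGroup (n hg) (odd_orderOf o hg)

theorem Sm.key (h : Sm K) (k : PiGrp {2} K) (n : A ≤ 𝐍 K) (o : Odd (♯A)) (nc : ¬ A ≤ 𝐂 K) :
    Elem 2 2 K K ∨ ∃ i j, IsQ8 K i j := by
  have hc : ¬ Cyc K := fun c => nc (cent_of_cyc k c n o)
  have inj := K.subtype_injective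
  have aut : ¬ IsPGroup 2 (MulAut K) := fun hp => nc fun g hg => by
    have := Fact.mk Nat.prime_two
    obtain ⟨m, hm⟩ := IsPGroup.iff_orderOf.1 hp (K.normalizerMonoidHom ⟨g, n hg⟩)
    have d : orderOf (K.normalizerMonoidHom ⟨g, n hg⟩) ∣ orderOf g :=
      (orderOf_map_dvd _ _).trans (by rw [Subgroup.orderOf_mk])
    have h1 : orderOf (K.normalizerMonoidHom ⟨g, n hg⟩) = 1 :=
      Nat.eq_one_of_dvd_coprimes ((Odd.coprime_two_right (odd_orderOf o hg)).pow_right m) d hm.dvd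
    have h2 : (⟨g, n hg⟩ : 𝐍 K) ∈ K.normalizerMonoidHom.ker := orderOf_eq_one_iff.1 h1
    rw [normalizerMonoidHom_ker] at h2
    exact h2
  rcases key_type (K := K) (by rw [← piGrp_map_iff inj, map_top_subtype]; exact k)
    (fun B _ a c e => h _ (map_subtype_le B) (a.map _) (by rwa [cyc_map_iff inj])
      (by rwa [card_map inj])) hc aut with e | ⟨⟨e⟩⟩
  · left
    simpa [map_top_subtype] using e.map inj
  · exact Or.inr (CF.Invol.exists_isQ8 e)

theorem v4_irr (e : Elem 2 2 V K) (n : A ≤ 𝐍 V) (o : Odd (♯A)) (nc : ¬ A ≤ 𝐂 V) (hU : U ≤ V)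
    (nU : A ≤ 𝐍 U) (h1 : U ≠ ⊥) : U = V := by
  by_contra h
  have c2 := (e.self.one_of_lt (lt_of_le_of_ne hU h) h1).card_one
  have dp := e.abel.dprod_cent_comm n (cop_of_odd o e.pi)
  have l : U ≤ V ⊓ 𝐂 A := le_inf hU (cent_symm (cent_of_two nU c2))
  have d1 := card_le l
  have d2 := dp.card
  rw [e.card] at d2
  have h3 : ⁅V, A⁆ ≠ ⊥ := fun hh => nc (comm_eq_bot'.1 hh)
  have d3 := one_lt_card.2 h3
  have d4 : ♯⁅V, A⁆ = 2 := by nlinarith
  have := cent_of_two (norm_comm_right V A) d4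
  exact nc (cent_of_comm_le_cent n (cop_of_odd o e.pi) (cent_symm this))

theorem comm_le_of_two (e : U.relIndex Q = 2) (nQ : Q ≤ 𝐍 U) (a : A ≤ 𝐍 U)
    (b : A ≤ 𝐍 Q) : ⁅A, Q⁆ ≤ U :=
  (qt_cent_iff a nQ).1 (cent_of_two (qt_norm U b) (by rw [card_qt nQ, e]))

theorem q8_pi (q : IsQ8 Q i j) : PiGrp {2} Q := piGrp_of_isPGroup Nat.prime_two q.isPGroup

omit [Finite G] in
theorem q8_not_abel (q : IsQ8 Q i j) : ¬ Abel Q :=
  fun a => q.not_commute (a.mul_comm q.left_mem q.right_mem)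

omit [Finite G] in
theorem q8_card_Z (q : IsQ8 Q i j) : ♯(zpowers (i * i)) = 2 := by
  rw [Nat.card_zpowers, q.orderOf_sq]

omit [Finite G] in
theorem q8_mem_Z (q : IsQ8 Q i j) {x : G} (hx : x ∈ Q) (h : x * x = 1) : x ∈ zpowers (i * i) := by
  rcases q.mul_self_cases hx with rfl | rfl | e
  · exact one_mem _
  · exact mem_zpowers _
  · exact absurd (e.symm.trans h) q.sq_ne

omit [Finite G] in
theorem q8_Z (q : IsQ8 Q i j) : 𝐙 Q = zpowers (i * i) := by
  ext g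
  rw [← center_map_subtype, q.mem_map_center_iff]
  refine ⟨by rintro (rfl | rfl); exacts [one_mem _, mem_zpowers _], fun h => ?_⟩
  have : g ∈ (center Q).map Q.subtype := by
    refine (zpowers_le.2 ?_ : zpowers (i * i) ≤ _) h
    exact q.mem_map_center_iff.2 (Or.inr rfl)
  exact q.mem_map_center_iff.1 this

theorem q8_irr (q : IsQ8 Q i j) (n : A ≤ 𝐍 Q) (o : Odd (♯A)) (nc : ¬ A ≤ 𝐂 Q) (hU : U < Q)
    (nU : A ≤ 𝐍 U) : U ≤ 𝐙 Q := by
  intro x hx
  rw [q8_Z q]
  by_contra h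
  have h2 : x * x ≠ 1 := fun e => h (q8_mem_Z q (hU.le hx) e)
  obtain ⟨y, q'⟩ := CF.Invol.exists_isQ8_of_mem q.nonempty_equiv.some (hU.le hx) h2
  have c4 : ♯(zpowers x) = 4 := by rw [Nat.card_zpowers, q'.orderOf_left]
  have d1 := card_dvd (zpowers_le.2 hx)
  have d2 := card_dvd hU.le
  have d3 := card_lt hU
  rw [q.card] at d2 d3
  rw [c4] at d1
  have cU : ♯U = 4 := by
    generalize ♯U = m at *
    interval_cases m <;> omega
  have eU : zpowers x = U := eq_of_card_eq (zpowers_le.2 hx) (by rw [c4, cU])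
  have i2 : U.relIndex Q = 2 := by
    have := card_mul_relIndex hU.le
    rw [cU, q.card] at this; omega
  have k := q8_pi q
  have c1 := cent_of_cyc (k.le hU.le) (eU ▸ cyc_zpowers x) nU o
  have c2 := comm_le_of_two i2 (norm_of_relIndex_prime k.nil hU.le (by rw [i2]; norm_num)) nU n
  rw [commutator_comm] at c2
  exact nc (cent_of_stable (cop_of_odd o (k.le hU.le)) c2 c1)

theorem q8_comm_le (q : IsQ8 Q i j) (n : A ≤ 𝐍 Q) (o : Odd (♯A)) (nc : ¬ A ≤ 𝐂 Q)
    (k : PiGrp {2} T) (a : T ≤ 𝐍 Q) (b : A ≤ 𝐍 T) : ⁅Q, T⁆ ≤ 𝐙 Q :=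
  q8_irr q n o nc (k.comm_lt (q8_pi q) a fun h => q8_not_abel q (h ▸ abel_bot))
    (norm_commutator n b)

theorem not_sm_of_invol {x t : G} (o : orderOf x = 4) (t2 : t * t = 1) (h : t ∉ zpowers x)
    (c : x * t = t * x) (hx : x ∈ K) (ht : t ∈ K) : ¬ Sm K := by
  have t1 : t ≠ 1 := fun e => h (e ▸ one_mem _)
  have ct : ♯(zpowers t) = 2 := by
    rw [Nat.card_zpowers]; exact orderOf_eq_of_pow Nat.prime_two (by rw [sq, t2]) t1
  have cx : ♯(zpowers x) = 4 := by rw [Nat.card_zpowers, o]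
  have cc : zpowers t ≤ 𝐂 (zpowers x) := by
    rw [cent_zpowers, zpowers_le, mem_cent1]; exact c.symm
  have dp := DProd.mk' cc (by
    rw [inf_comm]
    exact inf_eq_bot_of_prime_of_not_le (by rw [ct]; norm_num) (by rwa [zpowers_le]))
  intro s
  refine s _ (sup_le (zpowers_le.2 hx) (zpowers_le.2 ht))
    (dp.abel (abel_zpowers x) (abel_zpowers t)) (fun c' => ?_) (by rw [← dp.card, ct, cx])
  have := dp.coprime_of_cyc c'
  rw [ct, cx] at this
  norm_num at this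

end CF.Th5
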